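import Mathlib

set_option autoImplicit false
set_option linter.style.haveILetI false

namespace Cfsg.Agent.Helper18

open MulAction

/-- Burnside's lemma with `Nat.card`. -/
theorem burnside_nat (G X : Type*) [Group G] [MulAction G X] [Fintype G] [Finite X] :
    ∑ g : G, Nat.card (fixedBy X g) = Nat.card (orbitRel.Quotient G X) * Nat.card G := by
  classical
  letI : ∀ g : G, Fintype (fixedBy X g) := fun g => Fintype.ofFinite _
  letI : Fintype (orbitRel.Quotient G X) := Fintype.ofFinite _
  have h := MulAction.sum_card_fixedBy_eq_card_orbits_mul_card_group G X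
  simp only [Nat.card_eq_fintype_card]
  exact h

/-- If every point stabilizer has index divisible by `i`, then `i` divides the number of points. -/
theorem dvd_card_of_dvd_index_stabilizer (H X : Type*) [Group H] [MulAction H X] [Finite X] (i : ℕ)
    (h : ∀ x : X, i ∣ (stabilizer H x).index) : i ∣ Nat.card X := by
  classical
  letI : Fintype X := Fintype.ofFinite X
  letI : Fintype (orbitRel.Quotient H X) := Fintype.ofFinite _
  letI : ∀ ω : orbitRel.Quotient H X, Fintype ω.orbit := fun ω => Fintype.ofFinite _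
  rw [Nat.card_congr (selfEquivSigmaOrbits' H X), Nat.card_eq_fintype_card, Fintype.card_sigma]
  apply Finset.dvd_sum
  intro ω _
  induction ω using Quotient.inductionOn' with
  | h x =>
    have h1 := h x
    rw [index_stabilizer] at h1
    have h2 : orbitRel.Quotient.orbit (Quotient.mk'' x : orbitRel.Quotient H X) = orbit H x :=
      orbitRel.Quotient.orbit_mk x
    rw [← Nat.card_eq_fintype_card, Nat.card_congr (Equiv.setCongr h2), Nat.card_coe_set_eq]
    exact h1

section key

variable {G Ω : Type*} [Group G] [Finite G] [MulAction G Ω] [Finite Ω]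

/-- Key counting lemma: in a transitive action on a nonempty finite set, a subgroup `H` containing all
derangements has a single orbit, and every element outside `H` has exactly one fixed point. -/
theorem derange_key [Nonempty Ω] (htrans : IsPretransitive G Ω) (H : Subgroup G)
    (hH : ∀ g : G, (∀ ω : Ω, g • ω ≠ ω) → g ∈ H) :
    Nat.card (orbitRel.Quotient H Ω) = 1 ∧ ∀ g : G, g ∉ H → Nat.card (fixedBy Ω g) = 1 := by
  classical
  letI : Fintype G := Fintype.ofFinite G
  have hG := burnside_nat G Ω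
  have hH' := burnside_nat H Ω
  have hq : Nat.card (orbitRel.Quotient G Ω) = 1 := by
    have := (pretransitive_iff_unique_quotient_of_nonempty G Ω).mp htrans
    obtain ⟨u⟩ := this
    exact Nat.card_unique
  rw [hq, one_mul] at hG
  have hk : 1 ≤ Nat.card (orbitRel.Quotient H Ω) := by
    have : Nonempty (orbitRel.Quotient H Ω) := (nonempty_quotient_iff _).mpr inferInstance
    exact Nat.card_pos
  -- split the sum
  have hsplit := Fintype.sum_subtype_add_sum_subtype (fun g : G => g ∈ H)
    (fun g : G => Nat.card (fixedBy Ω g))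
  have hsplit1 := Fintype.sum_subtype_add_sum_subtype (fun g : G => g ∈ H) (fun _ : G => (1 : ℕ))
  have hge : ∀ g : {g : G // g ∉ H}, 1 ≤ Nat.card (fixedBy Ω (g : G)) := by
    intro g
    have hg : ¬ ∀ ω : Ω, (g : G) • ω ≠ ω := fun h => g.2 (hH _ h)
    push Not at hg
    obtain ⟨ω, hω⟩ := hg
    have : Nonempty (fixedBy Ω (g : G)) := ⟨⟨ω, hω⟩⟩
    exact Nat.card_pos
  have hsumge : ∑ g : {g : G // g ∉ H}, (1 : ℕ) ≤ ∑ g : {g : G // g ∉ H}, Nat.card (fixedBy Ω (g : G)) :=
    Finset.sum_le_sum (fun g _ => hge g)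
  have hHsum : ∑ g : {g : G // g ∈ H}, Nat.card (fixedBy Ω (g : G))
      = Nat.card (orbitRel.Quotient H Ω) * Nat.card H := hH'
  have hcardG : ∑ _g : G, (1 : ℕ) = Nat.card G := by
    simp [Nat.card_eq_fintype_card]
  have hcardH : ∑ _g : {g : G // g ∈ H}, (1 : ℕ) = Nat.card H := by
    simp [Nat.card_eq_fintype_card]
  have hHpos : 0 < Nat.card H := Nat.card_pos
  -- arithmetic
  set k := Nat.card (orbitRel.Quotient H Ω) with hkdef
  set A := ∑ g : {g : G // g ∉ H}, Nat.card (fixedBy Ω (g : G)) with hA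
  set c := ∑ _g : {g : G // g ∉ H}, (1 : ℕ) with hc
  have e1 : k * Nat.card H + A = Nat.card G := by rw [← hHsum, ← hG]; exact hsplit
  have e2 : Nat.card H + c = Nat.card G := by rw [← hcardH, ← hcardG]; exact hsplit1
  have hk1 : k = 1 := by
    by_contra hne
    have hk2 : 2 ≤ k := by omega
    have : 2 * Nat.card H ≤ k * Nat.card H := Nat.mul_le_mul_right _ hk2
    omega
  refine ⟨hk1, ?_⟩
  have hAc : c = A := by
    rw [hk1, one_mul] at e1
    omega
  have hall := (Finset.sum_eq_sum_iff_of_le (fun g _ => hge g)).mp hAc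
  intro g hg
  exact (hall ⟨g, hg⟩ (Finset.mem_univ _)).symm

end key

/-- Fixed points on pairs. -/
theorem card_fixedBy_prod {G Ω : Type*} [Group G] [MulAction G Ω] (g : G) :
    Nat.card (fixedBy (Ω × Ω) g) = Nat.card (fixedBy Ω g) ^ 2 := by
  have e : fixedBy (Ω × Ω) g ≃ fixedBy Ω g × fixedBy Ω g :=
    { toFun := fun x => (⟨x.1.1, congrArg Prod.fst x.2⟩, ⟨x.1.2, congrArg Prod.snd x.2⟩)
      invFun := fun y => ⟨(y.1.1, y.2.1), Prod.ext y.1.2 y.2.2⟩
      left_inv := fun x => rfl
      right_inv := fun y => rfl }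
  rw [Nat.card_congr e, Nat.card_prod, sq]

section derange2

variable {G Ω : Type*} [Group G] [MulAction G Ω]

/-- The subgroup generated by the derangements. -/
abbrev derSub (G Ω : Type*) [Group G] [MulAction G Ω] : Subgroup G :=
  Subgroup.closure {g : G | ∀ ω : Ω, g • ω ≠ ω}

theorem derSub_normal : (derSub G Ω).Normal := by
  constructor
  intro n hn g
  refine Subgroup.closure_induction (p := fun n _ => g * n * g⁻¹ ∈ derSub G Ω) ?_ ?_ ?_ ?_ hn
  · intro x hx
    apply Subgroup.subset_closure
    intro ω hω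
    apply hx (g⁻¹ • ω)
    have h1 : g⁻¹ • ((g * x * g⁻¹) • ω) = g⁻¹ • ω := by rw [hω]
    rw [← mul_smul] at h1
    rw [← mul_smul]
    have h2 : g⁻¹ * (g * x * g⁻¹) = x * g⁻¹ := by group
    rw [h2] at h1
    exact h1
  · simp
  · intro x y _ _ hx hy
    have h : g * (x * y) * g⁻¹ = (g * x * g⁻¹) * (g * y * g⁻¹) := by group
    rw [h]
    exact Subgroup.mul_mem _ hx hy
  · intro x _ hx
    have h : g * x⁻¹ * g⁻¹ = (g * x * g⁻¹)⁻¹ := by group
    rw [h]
    exact Subgroup.inv_mem _ hx

variable [Finite G] [Finite Ω]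

theorem derSub_transitive (htrans : IsPretransitive G Ω) : IsPretransitive (derSub G Ω) Ω := by
  classical
  rcases isEmpty_or_nonempty Ω with hΩ | hΩ
  · exact ⟨fun x => isEmptyElim x⟩
  · obtain ⟨h1, -⟩ := derange_key htrans (derSub G Ω) (fun g hg => Subgroup.subset_closure hg)
    rw [pretransitive_iff_subsingleton_quotient]
    exact (Nat.card_eq_one_iff_unique.mp h1).1

theorem mem_derSub_of_fix_two (htrans : IsPretransitive G Ω) {g : G} {a b : Ω} (hab : a ≠ b)
    (ha : g • a = a) (hb : g • b = b) : g ∈ derSub G Ω := by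
  classical
  haveI : Nonempty Ω := ⟨a⟩
  obtain ⟨-, h2⟩ := derange_key htrans (derSub G Ω) (fun g hg => Subgroup.subset_closure hg)
  by_contra hg
  have h3 := h2 g hg
  have h4 := (Nat.card_eq_one_iff_unique.mp h3).1
  have h5 : (⟨a, ha⟩ : fixedBy Ω g) = ⟨b, hb⟩ := Subsingleton.elim _ _
  exact hab (congrArg Subtype.val h5)

theorem derSub_sup_stabilizer (htrans : IsPretransitive G Ω) (a : Ω) :
    derSub G Ω ⊔ stabilizer G a = ⊤ := by
  rw [eq_top_iff]
  intro g _
  haveI := derSub_transitive htrans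
  obtain ⟨d, hd⟩ := exists_smul_eq (derSub G Ω) a (g • a)
  have h1 : (d : G)⁻¹ * g ∈ stabilizer G a := by
    rw [mem_stabilizer_iff, mul_smul, ← hd]
    show (d : G)⁻¹ • ((d : G) • a) = a
    rw [inv_smul_smul]
  have h2 : g = (d : G) * ((d : G)⁻¹ * g) := by group
  rw [h2]
  exact Subgroup.mul_mem_sup d.2 h1

theorem derSub_index_eq_relIndex (htrans : IsPretransitive G Ω) (a : Ω) :
    (derSub G Ω).index = (derSub G Ω).relIndex (stabilizer G a) := by
  haveI := derSub_normal (G := G) (Ω := Ω)
  rw [← Subgroup.relIndex_sup_left (stabilizer G a) (derSub G Ω), derSub_sup_stabilizer htrans a,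
    Subgroup.relIndex_top_right]

theorem derSub_index_dvd_index_stabilizer (htrans : IsPretransitive G Ω) (a : Ω)
    (S : SubMulAction (stabilizer G a) Ω) (hS : a ∉ S) (x : S) :
    (derSub G Ω).index ∣ (stabilizer (stabilizer G a) x).index := by
  rw [derSub_index_eq_relIndex htrans a]
  show ((derSub G Ω).subgroupOf (stabilizer G a)).index ∣ _
  apply Subgroup.index_dvd_of_le
  intro h hh
  rw [SubMulAction.stabilizer_of_subMul, mem_stabilizer_iff] at hh
  rw [Subgroup.mem_subgroupOf]
  exact mem_derSub_of_fix_two htrans (a := a) (b := (x : Ω)) (fun e => hS (by have hx2 := x.2; rwa [← e] at hx2))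
    (mem_stabilizer_iff.mp h.2) hh

theorem derSub_index_dvd_card (htrans : IsPretransitive G Ω) (a : Ω)
    (S : SubMulAction (stabilizer G a) Ω) (hS : a ∉ S) :
    (derSub G Ω).index ∣ Nat.card S :=
  dvd_card_of_dvd_index_stabilizer (stabilizer G a) S _
    (fun x => derSub_index_dvd_index_stabilizer htrans a S hS x)

theorem derSub_index_dvd_card_sub_one (htrans : IsPretransitive G Ω) (a : Ω) :
    (derSub G Ω).index ∣ Nat.card Ω - 1 := by
  have h := derSub_index_dvd_card htrans a (SubMulAction.ofStabilizer G a)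
    (fun h => h rfl)
  rwa [SubMulAction.nat_card_ofStabilizer_eq] at h

end derange2

section derange3

variable {G Ω : Type*} [Group G] [MulAction G Ω] [Finite G] [Finite Ω]

theorem derSub_isPrimePow [FaithfulSMul G Ω] (htrans : IsPretransitive G Ω) (hn : 2 ≤ Nat.card Ω)
    (hidx : (derSub G Ω).index = Nat.card Ω - 1) : IsPrimePow (Nat.card Ω) := by
  classical
  have hne : Nonempty Ω := (Nat.card_pos_iff.mp (by omega)).1
  obtain ⟨a⟩ := hne
  have hDn : (derSub G Ω).Normal := derSub_normal
  have hDt : IsPretransitive (derSub G Ω) Ω := derSub_transitive htrans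
  have hstab : ∀ x : SubMulAction.ofStabilizer G a,
      (stabilizer (stabilizer G a) x).index = Nat.card Ω - 1 := by
    intro x
    have h1 := derSub_index_dvd_index_stabilizer htrans a (SubMulAction.ofStabilizer G a)
      (fun h => h rfl) x
    rw [hidx] at h1
    have h2 : (stabilizer (stabilizer G a) x).index ≤ Nat.card Ω - 1 := by
      rw [index_stabilizer, ← SubMulAction.nat_card_ofStabilizer_eq G a, ← Set.ncard_univ]
      exact Set.ncard_le_ncard (Set.subset_univ _)
    have h3 : (stabilizer (stabilizer G a) x).index ≠ 0 := Subgroup.index_ne_zero_of_finite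
    exact Nat.le_antisymm h2 (Nat.le_of_dvd (Nat.pos_of_ne_zero h3) h1)
  have hDGa : ∀ d : G, d ∈ derSub G Ω → d • a = a → d = 1 := by
    intro d hdD hda
    apply FaithfulSMul.eq_of_smul_eq_smul (α := Ω)
    intro b
    rw [one_smul]
    by_cases hb : b = a
    · rw [hb, hda]
    · have hle : stabilizer (stabilizer G a) (⟨b, hb⟩ : SubMulAction.ofStabilizer G a)
          ≤ (derSub G Ω).subgroupOf (stabilizer G a) := by
        intro h hh
        rw [SubMulAction.stabilizer_of_subMul, mem_stabilizer_iff] at hh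
        rw [Subgroup.mem_subgroupOf]
        exact mem_derSub_of_fix_two htrans (a := a) (b := b) (Ne.symm hb)
          (mem_stabilizer_iff.mp h.2) hh
      have hidx2 : ((derSub G Ω).subgroupOf (stabilizer G a)).index = Nat.card Ω - 1 := by
        have h4 := derSub_index_eq_relIndex htrans a
        rw [hidx] at h4
        exact h4.symm
      have heq : stabilizer (stabilizer G a) (⟨b, hb⟩ : SubMulAction.ofStabilizer G a)
          = (derSub G Ω).subgroupOf (stabilizer G a) := by
        apply Subgroup.eq_of_le_of_card_ge hle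
        have c1 := Subgroup.card_mul_index
          (stabilizer (stabilizer G a) (⟨b, hb⟩ : SubMulAction.ofStabilizer G a))
        have c2 := Subgroup.card_mul_index ((derSub G Ω).subgroupOf (stabilizer G a))
        rw [hstab] at c1
        rw [hidx2] at c2
        have hpos : 0 < Nat.card Ω - 1 := by omega
        exact (Nat.eq_of_mul_eq_mul_right hpos (c1.trans c2.symm)).ge
      have hmem : (⟨d, hda⟩ : stabilizer G a) ∈ (derSub G Ω).subgroupOf (stabilizer G a) := by
        rw [Subgroup.mem_subgroupOf]; exact hdD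
      rw [← heq, SubMulAction.stabilizer_of_subMul, mem_stabilizer_iff] at hmem
      exact hmem
  have htr : ∀ b c : Ω, b ≠ a → c ≠ a → ∃ g : G, g • a = a ∧ g • b = c := by
    intro b c hb hc
    have horb : orbit (stabilizer G a) (⟨b, hb⟩ : SubMulAction.ofStabilizer G a) = Set.univ := by
      rw [Set.eq_univ_iff_ncard]
      rw [← index_stabilizer, hstab, SubMulAction.nat_card_ofStabilizer_eq]
    have hmem : (⟨c, hc⟩ : SubMulAction.ofStabilizer G a) ∈
        orbit (stabilizer G a) (⟨b, hb⟩ : SubMulAction.ofStabilizer G a) := by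
      rw [horb]; trivial
    obtain ⟨g, hg⟩ := hmem
    exact ⟨g, mem_stabilizer_iff.mp g.2, congrArg Subtype.val hg⟩
  have hconj : ∀ d d' : G, d ∈ derSub G Ω → d' ∈ derSub G Ω → d ≠ 1 → d' ≠ 1 →
      orderOf d = orderOf d' := by
    intro d d' hd hd' hd1 hd'1
    have hb : d • a ≠ a := fun h => hd1 (hDGa d hd h)
    have hc : d' • a ≠ a := fun h => hd'1 (hDGa d' hd' h)
    obtain ⟨g, hga, hgb⟩ := htr _ _ hb hc
    have hc1 : d'⁻¹ * (g * d * g⁻¹) = 1 := by
      apply hDGa
      · exact (derSub G Ω).mul_mem ((derSub G Ω).inv_mem hd') (hDn.conj_mem d hd g)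
      · have hga' : g⁻¹ • a = a := by rw [inv_smul_eq_iff, hga]
        rw [mul_smul, mul_smul, mul_smul, hga', hgb, inv_smul_smul]
    have hc2 : g * d * g⁻¹ = d' := by
      have h5 := congrArg (fun t => d' * t) hc1
      simp only [mul_inv_cancel_left, mul_one] at h5
      exact h5
    have hsemi : SemiconjBy g d d' := by
      unfold SemiconjBy
      rw [← hc2]; group
    exact hsemi.orderOf_eq
  obtain ⟨b, hb⟩ : ∃ b : Ω, b ≠ a := by
    by_contra hcon
    push Not at hcon
    have hss : Subsingleton Ω := ⟨fun x y => (hcon x).trans (hcon y).symm⟩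
    have h6 : Nat.card Ω ≤ 1 := Finite.card_le_one_iff_subsingleton.mpr hss
    omega
  obtain ⟨d₀, hd₀⟩ := exists_smul_eq (derSub G Ω) a b
  have hd₀1 : (d₀ : G) ≠ 1 := by
    intro h
    apply hb
    rw [← hd₀]
    show (d₀ : G) • a = a
    rw [h, one_smul]
  have hord : orderOf (d₀ : G) ≠ 1 := fun h => hd₀1 (orderOf_eq_one_iff.mp h)
  obtain ⟨p, hp, hpd⟩ := Nat.exists_prime_and_dvd hord
  have hx₀ord : orderOf ((d₀ : G) ^ (orderOf (d₀ : G) / p)) = p :=
    orderOf_pow_orderOf_div (orderOf_pos _).ne' hpd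
  have hx₀D : (d₀ : G) ^ (orderOf (d₀ : G) / p) ∈ derSub G Ω := (derSub G Ω).pow_mem d₀.2 _
  have hx₀1 : (d₀ : G) ^ (orderOf (d₀ : G) / p) ≠ 1 := by
    intro h
    rw [h, orderOf_one] at hx₀ord
    exact hp.one_lt.ne hx₀ord
  haveI : Fact p.Prime := ⟨hp⟩
  have hpg : IsPGroup p (derSub G Ω) := by
    intro d
    by_cases hd : (d : G) = 1
    · exact ⟨0, by rw [pow_zero, pow_one]; exact Subtype.ext hd⟩
    · refine ⟨1, ?_⟩
      have h1 := hconj (d : G) _ d.2 hx₀D hd hx₀1
      rw [hx₀ord] at h1
      apply Subtype.ext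
      rw [pow_one, Subgroup.coe_pow, Subgroup.coe_one, ← h1]
      exact pow_orderOf_eq_one _
  obtain ⟨k, hk⟩ := (IsPGroup.iff_card.mp hpg)
  have hstabD : stabilizer (derSub G Ω) a = ⊥ := by
    rw [Subgroup.eq_bot_iff_forall]
    intro d hd
    exact Subtype.ext (hDGa (d : G) d.2 (mem_stabilizer_iff.mp hd))
  have hcard : Nat.card (derSub G Ω) = Nat.card Ω := by
    have h7 := index_stabilizer_of_transitive (derSub G Ω) a
    rw [hstabD, Subgroup.index_bot] at h7
    exact h7
  rw [← hcard, hk]
  have hk0 : k ≠ 0 := by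
    rintro rfl
    rw [pow_zero] at hk
    omega
  exact ⟨p, k, hp.prime, Nat.pos_of_ne_zero hk0, rfl⟩

end derange3

end Cfsg.Agent.Helper18
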