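import Mathlib
import Cfsg.Prelude.Def_Classical
import Cfsg.Agent.Helper18.LawLevi

set_option autoImplicit false

namespace Cfsg.Agent.Helper18

open scoped Matrix
open Polynomial

section Unitary
variable {F : Type*} [Field F]

/-- matrices that are unitary with respect to the ring endomorphism `σ` -/
def IsU {ι : Type*} [Fintype ι] [DecidableEq ι] (σ : F →+* F) (M : Matrix ι ι F) : Prop :=
  M.transpose * M.map σ = 1

theorem herm_of_isU (n q : ℕ) (σ : F →+* F) (hσ : ∀ x, σ x = x ^ q)
    (M : Matrix (Fin n) (Fin n) F) (hM : IsU σ M) (u v : Fin n → F) :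
    Cfsg.hermForm n F q (M *ᵥ u) (M *ᵥ v) = Cfsg.hermForm n F q u v := by
  have key : ∀ x y : Fin n → F, Cfsg.hermForm n F q x y = x ⬝ᵥ (σ ∘ y) := by
    intro x y
    unfold Cfsg.hermForm dotProduct
    refine Finset.sum_congr rfl fun i _ => ?_
    rw [Function.comp_apply, hσ]
  rw [key, key]
  have h1 : σ ∘ (M *ᵥ v) = M.map σ *ᵥ (σ ∘ v) := by
    funext i
    exact RingHom.map_mulVec σ M v i
  have h2 : (M *ᵥ u) ⬝ᵥ (M.map σ *ᵥ (σ ∘ v)) = u ⬝ᵥ (M.transpose *ᵥ (M.map σ *ᵥ (σ ∘ v))) := by
    rw [dotProduct_comm (M *ᵥ u), Matrix.dotProduct_mulVec, ← Matrix.mulVec_transpose,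
      dotProduct_comm]
  rw [h1, h2, Matrix.mulVec_mulVec]
  have hM' : M.transpose * M.map σ = 1 := hM
  rw [hM', Matrix.one_mulVec]

theorem isU_block {ι : Type*} [Fintype ι] [DecidableEq ι] (σ : F →+* F) (B : Matrix ι ι F)
    (hB : IsU σ B) (κ : Type*) [Fintype κ] [DecidableEq κ] : IsU σ (blockHom ι κ B) := by
  have hB' : B.transpose * B.map σ = 1 := hB
  show (Matrix.fromBlocks B 0 0 1).transpose * (Matrix.fromBlocks B 0 0 1).map σ = 1
  rw [Matrix.fromBlocks_transpose, Matrix.fromBlocks_map, Matrix.fromBlocks_multiply]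
  simp [hB', Matrix.fromBlocks_one]

theorem isU_reindex {α β : Type*} [Fintype α] [Fintype β] [DecidableEq α] [DecidableEq β]
    (σ : F →+* F) (e : α ≃ β) (B : Matrix α α F) (hB : IsU σ B) : IsU σ (reindexHom e B) := by
  have hB' : B.transpose * B.map σ = 1 := hB
  show (B.submatrix e.symm e.symm).transpose * (B.submatrix e.symm e.symm).map σ = 1
  rw [Matrix.transpose_submatrix, ← Matrix.submatrix_map, Matrix.submatrix_mul_equiv, hB',
    Matrix.submatrix_one_equiv]

theorem isU_conj (σ : F →+* F) (T S g E : Matrix (Fin 2) (Fin 2) F) (hTS : T * S = 1)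
    (hT : T.transpose * T.map σ = E) (hg : g.map σ = g) (hgE : g.transpose * E * g = E) :
    IsU σ (T * g * S) := by
  show (T * g * S).transpose * (T * g * S).map σ = 1
  rw [Matrix.transpose_mul, Matrix.transpose_mul, Matrix.map_mul, Matrix.map_mul, hg]
  calc S.transpose * (g.transpose * T.transpose) * (T.map σ * g * S.map σ)
      = S.transpose * (g.transpose * (T.transpose * T.map σ) * g) * S.map σ := by
        simp only [Matrix.mul_assoc]
    _ = S.transpose * (T.transpose * T.map σ) * S.map σ := by rw [hT, hgE]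
    _ = (T * S).transpose * (T * S).map σ := by
        rw [Matrix.transpose_mul, Matrix.map_mul]; simp only [Matrix.mul_assoc]
    _ = 1 := by rw [hTS]; simp

theorem sl2_pres (g : Matrix.SpecialLinearGroup (Fin 2) F) (ε : F) :
    (g : Matrix (Fin 2) (Fin 2) F).transpose * !![0, ε; -ε, 0] * (g : Matrix (Fin 2) (Fin 2) F)
      = !![0, ε; -ε, 0] := by
  have hdet := g.2
  rw [Matrix.det_fin_two] at hdet
  refine Matrix.ext fun i j => ?_
  fin_cases i <;> fin_cases j <;> simp [Matrix.mul_apply, Fin.sum_univ_two] <;>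
    first | ring1 | linear_combination ε * hdet | linear_combination (-ε) * hdet

/-- conjugation by an invertible matrix as a monoid homomorphism -/
def conjHom (T S : Matrix (Fin 2) (Fin 2) F) (hTS : T * S = 1) (hST : S * T = 1) :
    Matrix (Fin 2) (Fin 2) F →* Matrix (Fin 2) (Fin 2) F where
  toFun A := T * A * S
  map_one' := by rw [Matrix.mul_one, hTS]
  map_mul' A B := by
    simp only [Matrix.mul_assoc]
    rw [← Matrix.mul_assoc S T, hST, Matrix.one_mul]

theorem conjHom_injective (T S : Matrix (Fin 2) (Fin 2) F) (hTS : T * S = 1) (hST : S * T = 1) :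
    Function.Injective (conjHom T S hTS hST) := by
  intro A B h
  have h1 : T * A * S = T * B * S := h
  have h2 : S * (T * A * S) * T = S * (T * B * S) * T := by rw [h1]
  have h3 : ∀ X : Matrix (Fin 2) (Fin 2) F, S * (T * X * S) * T = X := by
    intro X
    calc S * (T * X * S) * T = (S * T) * X * (S * T) := by simp only [Matrix.mul_assoc]
      _ = X := by rw [hST, Matrix.one_mul, Matrix.mul_one]
  rw [h3, h3] at h2
  exact h2

/-- the twisted block embedding of `SL₂` into matrices -/
noncomputable def thetaMat (n : ℕ) (hn : 2 ≤ n) (T S : Matrix (Fin 2) (Fin 2) F) (hTS : T * S = 1)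
    (hST : S * T = 1) : Matrix.SpecialLinearGroup (Fin 2) F →* Matrix (Fin n) (Fin n) F :=
  (reindexHom (finSumFinEquiv.trans (finCongr (by omega : 2 + (n - 2) = n)))).comp
    ((blockHom (Fin 2) (Fin (n - 2))).comp ((conjHom T S hTS hST).comp (Cfsg.slToMat 2 F)))

theorem thetaMat_det (n : ℕ) (hn : 2 ≤ n) (T S : Matrix (Fin 2) (Fin 2) F) (hTS : T * S = 1)
    (hST : S * T = 1) (g : Matrix.SpecialLinearGroup (Fin 2) F) :
    (thetaMat n hn T S hTS hST g).det = 1 := by
  show ((Matrix.fromBlocks (T * (g : Matrix (Fin 2) (Fin 2) F) * S) 0 0 1).submatrix _ _).det = 1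
  rw [Matrix.det_submatrix_equiv_self, Matrix.det_fromBlocks_zero₂₁, Matrix.det_one, mul_one,
    Matrix.det_mul, Matrix.det_mul, mul_right_comm, ← Matrix.det_mul, hTS, Matrix.det_one, one_mul]
  exact g.2

/-- the twisted block embedding of `SL₂` into `SL_n` -/
noncomputable def thetaSL (n : ℕ) (hn : 2 ≤ n) (T S : Matrix (Fin 2) (Fin 2) F) (hTS : T * S = 1)
    (hST : S * T = 1) : Matrix.SpecialLinearGroup (Fin 2) F →* Matrix.SpecialLinearGroup (Fin n) F where
  toFun g := ⟨thetaMat n hn T S hTS hST g, thetaMat_det n hn T S hTS hST g⟩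
  map_one' := Subtype.ext (map_one (thetaMat n hn T S hTS hST))
  map_mul' a b := Subtype.ext (map_mul (thetaMat n hn T S hTS hST) a b)

theorem thetaSL_injective (n : ℕ) (hn : 2 ≤ n) (T S : Matrix (Fin 2) (Fin 2) F) (hTS : T * S = 1)
    (hST : S * T = 1) : Function.Injective (thetaSL n hn T S hTS hST) := by
  intro a b h
  have h1 : thetaMat n hn T S hTS hST a = thetaMat n hn T S hTS hST b := congrArg Subtype.val h
  have hinj : Function.Injective (thetaMat n hn T S hTS hST) := by
    unfold thetaMat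
    rw [MonoidHom.coe_comp, MonoidHom.coe_comp, MonoidHom.coe_comp]
    refine (reindexHom_injective _).comp ((blockHom_injective _ _).comp
      ((conjHom_injective T S hTS hST).comp ?_))
    intro A B h
    apply Subtype.ext
    exact h
  exact hinj h1

theorem thetaSL_mem_SU (n q : ℕ) (hn : 2 ≤ n) (σ : F →+* F) (hσ : ∀ x, σ x = x ^ q)
    (T S : Matrix (Fin 2) (Fin 2) F) (hTS : T * S = 1) (hST : S * T = 1) (ε : F)
    (hT : T.transpose * T.map σ = !![0, ε; -ε, 0])
    (g : Matrix.SpecialLinearGroup (Fin 2) F)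
    (hg : (g : Matrix (Fin 2) (Fin 2) F).map σ = (g : Matrix (Fin 2) (Fin 2) F)) :
    thetaSL n hn T S hTS hST g ∈ Cfsg.SU n F q := by
  intro u v
  show Cfsg.hermForm n F q (thetaMat n hn T S hTS hST g *ᵥ u) (thetaMat n hn T S hTS hST g *ᵥ v)
    = Cfsg.hermForm n F q u v
  apply herm_of_isU n q σ hσ
  exact isU_reindex σ _ _ (isU_block σ _ (isU_conj σ T S _ _ hTS hT hg (sl2_pres g ε)) _)

/-- even permutation matrices in `SL_n` -/
noncomputable def altSL (n : ℕ) : alternatingGroup (Fin n) →* Matrix.SpecialLinearGroup (Fin n) F where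
  toFun a := ⟨permHom (Fin n) F (a : Equiv.Perm (Fin n)), by
    rw [permHom_det, Equiv.Perm.mem_alternatingGroup.mp a.2]; simp⟩
  map_one' := Subtype.ext (map_one (permHom (Fin n) F))
  map_mul' a b := Subtype.ext (map_mul (permHom (Fin n) F) _ _)

theorem altSL_injective (n : ℕ) : Function.Injective (altSL (F := F) n) := by
  intro a b h
  apply Subtype.ext
  apply permHom_injective (Fin n) F
  exact congrArg Subtype.val h

theorem altSL_mem_SU (n q : ℕ) (a : alternatingGroup (Fin n)) :
    altSL (F := F) n a ∈ Cfsg.SU n F q := by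
  intro u v
  show Cfsg.hermForm n F q (permHom (Fin n) F (a : Equiv.Perm (Fin n)) *ᵥ u)
    (permHom (Fin n) F (a : Equiv.Perm (Fin n)) *ᵥ v) = Cfsg.hermForm n F q u v
  rw [permHom_mulVec, permHom_mulVec]
  unfold Cfsg.hermForm
  exact Equiv.sum_comp ((a : Equiv.Perm (Fin n))⁻¹) (fun i => u i * v i ^ q)

end Unitary

section UnitaryExist
variable {F : Type} [Field F] [Fintype F]

theorem two_le_of_card_sq (q : ℕ) (hF : Fintype.card F = q ^ 2) : 2 ≤ q := by
  by_contra h
  have h1 : Fintype.card F ≤ 1 := by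
    rw [hF]
    have : q = 0 ∨ q = 1 := by omega
    rcases this with rfl | rfl <;> simp
  have := Fintype.one_lt_card (α := F)
  omega

/-- the ring endomorphism `x ↦ x^q` when `|F| = q²` -/
theorem exists_sigma (q : ℕ) (hF : Fintype.card F = q ^ 2) :
    ∃ σ : F →+* F, (∀ x, σ x = x ^ q) ∧ (∀ x, σ (σ x) = x) := by
  obtain ⟨p, hp⟩ := CharP.exists F
  obtain ⟨n, hpp, hcard⟩ := FiniteField.card F p
  have hq : q ∣ p ^ (n : ℕ) := by
    rw [← hcard, hF]; exact dvd_pow_self q two_ne_zero
  obtain ⟨j, _, hj⟩ := (Nat.dvd_prime_pow hpp).mp hq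
  haveI : Fact p.Prime := ⟨hpp⟩
  refine ⟨iterateFrobenius F p j, fun x => ?_, fun x => ?_⟩
  · rw [iterateFrobenius_def, hj]
  · rw [iterateFrobenius_def, iterateFrobenius_def, ← hj, ← pow_mul, ← sq, ← hF]
    exact FiniteField.pow_card x

theorem exists_not_fixed (q : ℕ) (hF : Fintype.card F = q ^ 2) : ∃ x : F, x ^ q ≠ x := by
  have hq2 := two_le_of_card_sq q hF
  by_contra hall
  push Not at hall
  have hdeg : (X ^ q - X : F[X]).natDegree < Fintype.card F := by
    rw [FiniteField.X_pow_card_sub_X_natDegree_eq F (by omega : 1 < q), hF]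
    nlinarith
  exact FiniteField.X_pow_card_sub_X_ne_zero F (by omega : 1 < q)
    (Polynomial.eq_zero_of_natDegree_lt_card_of_eval_eq_zero _ (f := id) Function.injective_id
      (fun x => by simp [hall x]) hdeg)

theorem exists_norm_neg_one (q : ℕ) (hF : Fintype.card F = q ^ 2) :
    ∃ l : F, l * l ^ q = -1 := by
  classical
  rcases Nat.even_or_odd q with hq | hq
  · obtain ⟨p, hp⟩ := CharP.exists F
    obtain ⟨n, hpp, hcard⟩ := FiniteField.card F p
    have h2 : 2 ∣ p ^ (n : ℕ) := by
      rw [← hcard, hF]; exact dvd_pow hq.two_dvd two_ne_zero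
    have hp2 : 2 = p :=
      (Nat.prime_dvd_prime_iff_eq Nat.prime_two hpp).mp (Nat.Prime.dvd_of_dvd_pow Nat.prime_two h2)
    subst hp2
    refine ⟨1, ?_⟩
    rw [one_pow, one_mul]
    exact (CharTwo.neg_eq (1 : F)).symm
  · obtain ⟨t, rfl⟩ := hq
    obtain ⟨ω, hω⟩ := IsCyclic.exists_generator (α := Fˣ)
    have hord : orderOf ω = Fintype.card Fˣ := by
      rw [orderOf_eq_card_of_forall_mem_zpowers hω, Nat.card_eq_fintype_card]
    have hcardu : Fintype.card Fˣ = 2 * (t * (2 * t + 1 + 1)) := by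
      rw [Fintype.card_units, hF]
      have : (2 * t + 1) ^ 2 = 2 * (t * (2 * t + 1 + 1)) + 1 := by ring
      omega
    have ht : 1 ≤ t := by
      have := two_le_of_card_sq _ hF
      omega
    have hKpos : 0 < t * (2 * t + 1 + 1) := by positivity
    have h1 : (ω ^ (t * (2 * t + 1 + 1))) ^ 2 = 1 := by
      rw [← pow_mul, mul_comm, ← hcardu]; exact pow_card_eq_one
    have h2 : ω ^ (t * (2 * t + 1 + 1)) ≠ 1 :=
      pow_ne_one_of_lt_orderOf (by omega) (by rw [hord, hcardu]; omega)
    have h3 : ((ω ^ (t * (2 * t + 1 + 1)) : Fˣ) : F) = -1 := by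
      have h4 : ((ω ^ (t * (2 * t + 1 + 1)) : Fˣ) : F) ^ 2 = 1 := by
        rw [← Units.val_pow_eq_pow_val, h1, Units.val_one]
      have h5 : ((ω ^ (t * (2 * t + 1 + 1)) : Fˣ) : F) ≠ 1 := fun h => h2 (Units.ext h)
      have h6 : (((ω ^ (t * (2 * t + 1 + 1)) : Fˣ) : F) - 1) *
          (((ω ^ (t * (2 * t + 1 + 1)) : Fˣ) : F) + 1) = 0 := by linear_combination h4
      rcases mul_eq_zero.mp h6 with h7 | h7
      · exact absurd (sub_eq_zero.mp h7) h5
      · linear_combination h7
    refine ⟨((ω ^ t : Fˣ) : F), ?_⟩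
    rw [← pow_succ', ← Units.val_pow_eq_pow_val, ← pow_mul]
    exact h3

/-- the unitary case -/
theorem psu_params (w : FreeGroup ℕ) (N₁ : ℕ)
    (hN₁ : ∀ n : ℕ, N₁ ≤ n → ∃ (f : ℕ → alternatingGroup (Fin n))
      (τ : alternatingGroup (Fin n)), ¬ Commute (FreeGroup.lift f w) τ)
    (D : ℕ)
    (hD : ∀ (F : Type) [Field F], ∃ p : F[X], p ≠ 0 ∧ p.natDegree ≤ D ∧
      ∀ c : F, ((FreeGroup.lift (fun i => Cfsg.Agent.S2353.uvu (c ^ (2 * i + 1)) c (c ^ (2 * i + 2))) w :
        Matrix.SpecialLinearGroup (Fin 2) F) : Matrix (Fin 2) (Fin 2) F) 0 1 = p.eval c)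
    (n q : ℕ) (hF : Fintype.card F = q ^ 2) (hn : 3 ≤ n)
    (hlaw : ∀ g : ℕ → Cfsg.PSU n F q, FreeGroup.lift g w = 1) : n < N₁ ∧ q ≤ D := by
  classical
  constructor
  · by_contra hcon
    obtain ⟨f, τ, hnc⟩ := hN₁ n (by omega)
    exact hnc (law_commute w hlaw (Cfsg.SU n F q).subtype (altSL n) (altSL_injective n) f
      (fun i => by rw [Subgroup.range_subtype]; exact altSL_mem_SU n q _) τ
      (by rw [Subgroup.range_subtype]; exact altSL_mem_SU n q _))
  · by_contra hcon
    have hDq : D < q := by omega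
    have hq2 := two_le_of_card_sq q hF
    obtain ⟨σ, hσ, hσσ⟩ := exists_sigma q hF
    obtain ⟨x, hx⟩ := exists_not_fixed q hF
    obtain ⟨l, hl⟩ := exists_norm_neg_one q hF
    obtain ⟨p, hp0, hpD, hp⟩ := hD F
    obtain ⟨y, hy⟩ : ∃ y : F, p.eval (σ y + y) ≠ 0 := by
      have hr : (X ^ q + X : F[X]).natDegree = q := by
        rw [Polynomial.natDegree_add_eq_left_of_natDegree_lt]
        · exact Polynomial.natDegree_X_pow q
        · rw [Polynomial.natDegree_X_pow, Polynomial.natDegree_X]; omega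
      have hne : p.comp (X ^ q + X) ≠ 0 := by
        intro h0
        have h1 := Polynomial.leadingCoeff_comp (p := p) (q := X ^ q + X) (by rw [hr]; omega)
        rw [h0, Polynomial.leadingCoeff_zero] at h1
        have h2 : p.leadingCoeff ≠ 0 := Polynomial.leadingCoeff_ne_zero.mpr hp0
        have h3 : (X ^ q + X : F[X]).leadingCoeff ≠ 0 :=
          Polynomial.leadingCoeff_ne_zero.mpr (by
            intro h; rw [h, Polynomial.natDegree_zero] at hr; omega)
        exact mul_ne_zero h2 (pow_ne_zero _ h3) h1.symm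
      by_contra hall
      push Not at hall
      apply hne
      apply Polynomial.eq_zero_of_natDegree_lt_card_of_eval_eq_zero _ (f := id)
        Function.injective_id
      · intro y
        rw [Polynomial.eval_comp]
        have := hall y
        rw [hσ] at this
        simpa using this
      · rw [Polynomial.natDegree_comp, hr, hF]; nlinarith
    obtain ⟨c, hc⟩ : ∃ c : F, c = σ y + y := ⟨_, rfl⟩
    rw [← hc] at hy
    have hσc : σ c = c := by
      rw [hc, map_add, hσσ, add_comm]
    have hl0 : l ≠ 0 := by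
      rintro rfl
      simp at hl
    have hsx : σ x - x ≠ 0 := sub_ne_zero.mpr (by rw [hσ]; exact hx)
    have hlσ : l * σ l = -1 := by rw [hσ]; exact hl
    obtain ⟨T, hTdef⟩ : ∃ T : Matrix (Fin 2) (Fin 2) F, T = !![1, x; l, l * σ x] := ⟨_, rfl⟩
    have hdetT : T.det ≠ 0 := by
      rw [hTdef, Matrix.det_fin_two_of]
      have h1 : 1 * (l * σ x) - x * l = l * (σ x - x) := by ring
      rw [h1]; exact mul_ne_zero hl0 hsx
    have hTS : T * T⁻¹ = 1 := Matrix.mul_nonsing_inv T (isUnit_iff_ne_zero.mpr hdetT)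
    have hST : T⁻¹ * T = 1 := Matrix.nonsing_inv_mul T (isUnit_iff_ne_zero.mpr hdetT)
    have hT : T.transpose * T.map σ = !![0, σ x - x; -(σ x - x), 0] := by
      rw [hTdef]
      refine Matrix.ext fun i j => ?_
      fin_cases i <;> fin_cases j <;> simp [Matrix.mul_apply, Fin.sum_univ_two, hσσ] <;>
        first
          | linear_combination hlσ
          | linear_combination x * hlσ
          | linear_combination (σ x) * hlσ
          | linear_combination (σ x * x) * hlσ
    have hfix : ∀ a b d : F, σ a = a → σ b = b → σ d = d →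
        ((Cfsg.Agent.S2353.uvu a b d : Matrix.SpecialLinearGroup (Fin 2) F) :
          Matrix (Fin 2) (Fin 2) F).map σ = (Cfsg.Agent.S2353.uvu a b d :
            Matrix.SpecialLinearGroup (Fin 2) F) := by
      intro a b d ha hb hd
      have h1 := congrArg Subtype.val (Cfsg.Agent.S2353.uvu_map σ a b d)
      rw [ha, hb, hd] at h1
      exact h1
    have hvfix : ((vSL (1 : F) : Matrix.SpecialLinearGroup (Fin 2) F) :
        Matrix (Fin 2) (Fin 2) F).map σ = (vSL (1 : F) : Matrix.SpecialLinearGroup (Fin 2) F) := by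
      refine Matrix.ext fun i j => ?_
      fin_cases i <;> fin_cases j <;> simp [vSL, Cfsg.Agent.S2353.vM]
    have hcomm := law_commute w hlaw (Cfsg.SU n F q).subtype
      (thetaSL n (by omega) T T⁻¹ hTS hST) (thetaSL_injective n (by omega) T T⁻¹ hTS hST)
      (fun i => Cfsg.Agent.S2353.uvu (c ^ (2 * i + 1)) c (c ^ (2 * i + 2)))
      (fun i => by
        rw [Subgroup.range_subtype]
        exact thetaSL_mem_SU n q (by omega) σ hσ T T⁻¹ hTS hST _ hT _
          (hfix _ _ _ (by rw [map_pow, hσc]) hσc (by rw [map_pow, hσc])))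
      (vSL 1)
      (by
        rw [Subgroup.range_subtype]
        exact thetaSL_mem_SU n q (by omega) σ hσ T T⁻¹ hTS hST _ hT _ hvfix)
    exact not_commute_vSL _ (by rw [hp c]; exact hy) hcomm

end UnitaryExist

end Cfsg.Agent.Helper18
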