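import Mathlib

set_option autoImplicit false

/-!
Relabelling a permutation group on a finite type `P` along `e : P ≃ Fin n`
(to produce subgroups of `Equiv.Perm (Fin n)`), with transfer of transitivity, primitivity,
multiple transitivity and trivial stabilizers; and the left regular representation `regSub`.
-/

namespace Cfsg.Agent.Helper18

section
variable {P : Type*} {n : ℕ} (e : P ≃ Fin n) (S : Subgroup (Equiv.Perm P))

/-- the image of a permutation group under relabelling of points -/
def trSub : Subgroup (Equiv.Perm (Fin n)) := S.map e.permCongrHom.toMonoidHom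

/-- the relabelling map on group elements -/
def trFun : S → trSub e S := fun g => ⟨e.permCongrHom g, Subgroup.mem_map_of_mem _ g.2⟩

theorem trFun_surjective : Function.Surjective (trFun e S) := by
  rintro ⟨y, hy⟩
  obtain ⟨g, hg, rfl⟩ := hy
  exact ⟨⟨g, hg⟩, rfl⟩

/-- the relabelling as an equivariant map -/
def trHom : P →ₑ[trFun e S] Fin n where
  toFun := e
  map_smul' := by
    intro m x
    show e ((m : Equiv.Perm P) x) = (e.permCongr (m : Equiv.Perm P)) (e x)
    rw [Equiv.permCongr_apply, Equiv.symm_apply_apply]

theorem trHom_bijective : Function.Bijective (trHom e S) := e.bijective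

theorem trSub_mono {S T : Subgroup (Equiv.Perm P)} (h : S ≤ T) : trSub e S ≤ trSub e T :=
  Subgroup.map_mono h

/-- the relabelled group is isomorphic to the original one -/
noncomputable def trEquiv : trSub e S ≃* S :=
  (S.equivMapOfInjective e.permCongrHom.toMonoidHom e.permCongrHom.injective).symm

theorem tr_isPretransitive :
    MulAction.IsPretransitive S P ↔ MulAction.IsPretransitive (trSub e S) (Fin n) :=
  MulAction.isPretransitive_congr (trFun_surjective e S) (trHom_bijective e S)

theorem tr_isPreprimitive :
    MulAction.IsPreprimitive S P ↔ MulAction.IsPreprimitive (trSub e S) (Fin n) :=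
  MulAction.isPreprimitive_congr (trFun_surjective e S) (trHom_bijective e S)

theorem tr_isMultiplyPretransitive (k : ℕ) :
    MulAction.IsMultiplyPretransitive S P k ↔
      MulAction.IsMultiplyPretransitive (trSub e S) (Fin n) k :=
  MulAction.IsPretransitive.of_embedding_congr (trFun_surjective e S) (trHom_bijective e S)

theorem tr_stabilizer (h : ∀ a : P, MulAction.stabilizer S a = ⊥) (a : Fin n) :
    MulAction.stabilizer (trSub e S) a = ⊥ := by
  rw [eq_bot_iff]
  rintro ⟨y, hy⟩ hmem
  obtain ⟨g, hg, rfl⟩ := hy
  rw [MulAction.mem_stabilizer_iff] at hmem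
  have h1 : e (g (e.symm a)) = a := hmem
  have h2 : (⟨g, hg⟩ : S) ∈ MulAction.stabilizer S (e.symm a) := by
    rw [MulAction.mem_stabilizer_iff]
    exact (Equiv.eq_symm_apply e).2 h1
  rw [h] at h2
  have hg1 : g = 1 := congrArg Subtype.val (Subgroup.mem_bot.1 h2)
  subst hg1
  exact Subgroup.mem_bot.2 (Subtype.ext (map_one _))

end

section
variable (P : Type*) [Group P]

/-- the left regular representation as a permutation group -/
def regSub : Subgroup (Equiv.Perm P) := (MulAction.toPermHom P P).range

theorem toPermHom_self_injective : Function.Injective (MulAction.toPermHom P P) :=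
  MulAction.toPerm_injective

/-- the regular permutation group is isomorphic to the group -/
noncomputable def regEquiv : regSub P ≃* P :=
  (MonoidHom.ofInjective (toPermHom_self_injective P)).symm

theorem mem_regSub_iff (σ : Equiv.Perm P) : σ ∈ regSub P ↔ ∃ a : P, ∀ x, σ x = a * x := by
  constructor
  · rintro ⟨a, rfl⟩
    exact ⟨a, fun x => rfl⟩
  · rintro ⟨a, ha⟩
    exact ⟨a, Equiv.ext (fun x => (ha x).symm)⟩

theorem regSub_isPretransitive : MulAction.IsPretransitive (regSub P) P := by
  constructor
  intro x y
  refine ⟨⟨MulAction.toPermHom P P (y * x⁻¹), ⟨_, rfl⟩⟩, ?_⟩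
  show (y * x⁻¹) * x = y
  rw [inv_mul_cancel_right]

theorem regSub_stabilizer (a : P) : MulAction.stabilizer (regSub P) a = ⊥ := by
  rw [eq_bot_iff]
  rintro ⟨σ, hσ⟩ hmem
  obtain ⟨b, rfl⟩ := hσ
  rw [MulAction.mem_stabilizer_iff] at hmem
  have hb : b * a = a := hmem
  have hb1 : b = 1 := mul_eq_right.1 hb
  subst hb1
  exact Subgroup.mem_bot.2 (Subtype.ext (map_one _))

end

end Cfsg.Agent.Helper18
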