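import Mathlib

/-!
Prime graph of `V^m ⋊ SL(2,E)` for a finite field `E` of characteristic 2, and helpers about
orders of elements of `SL(2,R)` via the trace recursion.
-/

set_option autoImplicit false

namespace Cfsg.Agent.Helper18

open Matrix

section transport

universe u

theorem exists_small_model (K : Type u) [Group K] [Finite K] :
    ∃ (H : Type) (_ : Group H) (_ : Finite H), Nonempty (H ≃* K) := by
  have hs : Small.{0} K := Countable.toSmall.{0} K
  exact ⟨Shrink.{0} K, inferInstance, Finite.of_equiv K (equivShrink K), ⟨Shrink.mulEquiv⟩⟩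

theorem exists_orderOf_congr {A B : Type*} [Group A] [Group B] (e : A ≃* B) (n : ℕ) :
    (∃ g : A, orderOf g = n) ↔ (∃ g : B, orderOf g = n) := by
  constructor
  · rintro ⟨g, hg⟩
    exact ⟨e g, by rw [MulEquiv.orderOf_eq]; exact hg⟩
  · rintro ⟨g, hg⟩
    exact ⟨e.symm g, by rw [MulEquiv.orderOf_eq]; exact hg⟩

theorem not_mul_dvd_prime_pow {p q l k : ℕ} (hp : p.Prime) (hq : q.Prime) (hpq : p ≠ q)
    (hl : l.Prime) : ¬ p * q ∣ l ^ k := by
  intro h
  have h1 : p = l := (Nat.prime_dvd_prime_iff_eq hp hl).mp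
    (hp.dvd_of_dvd_pow ((dvd_mul_right p q).trans h))
  have h2 : q = l := (Nat.prime_dvd_prime_iff_eq hq hl).mp
    (hq.dvd_of_dvd_pow ((dvd_mul_left q p).trans h))
  exact hpq (h1.trans h2.symm)

end transport

section semidirect

open SemidirectProduct

variable {N G : Type*} [CommGroup N] [Group G] (φ : G →* MulAut N)

theorem sd_pow (hexp : ∀ w : N, w * w = 1) (h : N ⋊[φ] G) (n : ℕ) (hn : h.right ^ n = 1) :
    h ^ (n * 2) = 1 := by
  have hr : (h ^ n).right = 1 := by
    have h1 : (h ^ n).right = h.right ^ n := map_pow (rightHom : N ⋊[φ] G →* G) h n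
    rw [h1, hn]
  have hinl : h ^ n = inl (h ^ n).left := by
    ext
    · simp
    · simp [hr]
  rw [pow_mul, hinl, pow_two, ← map_mul, hexp, map_one]

theorem sd_key (hexp : ∀ w : N, w * w = 1)
    (hfix : ∀ (g : G) (w : N), w ≠ 1 → φ g w = w → g ^ 2 = 1)
    (h : N ⋊[φ] G) (q : ℕ) (hq : q.Prime) (hq2 : q ≠ 2) (hh : orderOf h = 2 * q) :
    orderOf h.right = 2 * q := by
  have hk1 : orderOf h.right ∣ 2 * q := by
    rw [← hh]
    exact orderOf_map_dvd (rightHom : N ⋊[φ] G →* G) h
  have hk0 : orderOf h.right ≠ 0 := by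
    intro h0
    rw [h0] at hk1
    have := Nat.eq_zero_of_zero_dvd hk1
    have := hq.pos
    omega
  have h2 : 2 * q ∣ orderOf h.right * 2 := by
    rw [← hh]
    exact orderOf_dvd_of_pow_eq_one (sd_pow φ hexp h _ (pow_orderOf_eq_one h.right))
  have hqk : q ∣ orderOf h.right := by
    have h3 : q ∣ orderOf h.right * 2 := (dvd_mul_left q 2).trans h2
    exact (hq.dvd_mul.mp h3).resolve_right
      (fun h' => hq2 ((Nat.prime_dvd_prime_iff_eq hq Nat.prime_two).mp h'))
  obtain ⟨j, hj⟩ := hqk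
  have hj2 : j ∣ 2 := by
    rw [hj, mul_comm 2 q] at hk1
    exact Nat.dvd_of_mul_dvd_mul_left hq.pos hk1
  rcases (Nat.dvd_prime Nat.prime_two).mp hj2 with rfl | rfl
  · exfalso
    rw [mul_one] at hj
    have hgq : h.right ^ q = 1 := by rw [← hj]; exact pow_orderOf_eq_one h.right
    have hr : (h ^ q).right = 1 := by
      have h1 : (h ^ q).right = h.right ^ q := map_pow (rightHom : N ⋊[φ] G →* G) h q
      rw [h1, hgq]
    have hw : h ^ q = inl (h ^ q).left := by
      ext
      · simp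
      · simp [hr]
    obtain ⟨w, hwdef⟩ : ∃ w : N, w = (h ^ q).left := ⟨_, rfl⟩
    rw [← hwdef] at hw
    have hw1 : w ≠ 1 := by
      intro hw1
      rw [hw1, map_one] at hw
      have h4 := orderOf_dvd_of_pow_eq_one hw
      rw [hh] at h4
      have h5 := Nat.le_of_dvd hq.pos h4
      have h6 := hq.pos
      omega
    have hcomm : h * inl w = inl w * h := by
      rw [← hw]
      exact (Commute.self_pow h q).eq
    have hl := congrArg SemidirectProduct.left hcomm
    simp only [mul_left, left_inl, right_inl, map_one, MulAut.one_apply] at hl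
    have hfixw : φ h.right w = w := by
      have h7 : h.left * φ h.right w = h.left * w := by rw [hl, mul_comm]
      exact mul_left_cancel h7
    have hg2 := hfix h.right w hw1 hfixw
    have h8 := orderOf_dvd_of_pow_eq_one hg2
    rw [hj] at h8
    exact hq2 ((Nat.prime_dvd_prime_iff_eq hq Nat.prime_two).mp h8)
  · rw [hj, mul_comm]

theorem sd_graph (hexp : ∀ w : N, w * w = 1)
    (hfix : ∀ (g : G) (w : N), w ≠ 1 → φ g w = w → g ^ 2 = 1)
    (p q : ℕ) (hp : p.Prime) (hq : q.Prime) (hpq : p ≠ q) :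
    (∃ h : N ⋊[φ] G, orderOf h = p * q) ↔ (∃ g : G, orderOf g = p * q) := by
  constructor
  · rintro ⟨h, hh⟩
    by_cases hp2 : p = 2
    · subst hp2
      exact ⟨h.right, sd_key φ hexp hfix h q hq (Ne.symm hpq) hh⟩
    by_cases hq2 : q = 2
    · subst hq2
      rw [mul_comm] at hh ⊢
      exact ⟨h.right, sd_key φ hexp hfix h p hp hpq hh⟩
    · refine ⟨h.right, ?_⟩
      have hk1 : orderOf h.right ∣ p * q := by
        rw [← hh]
        exact orderOf_map_dvd (rightHom : N ⋊[φ] G →* G) h
      have h2 : p * q ∣ orderOf h.right * 2 := by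
        rw [← hh]
        exact orderOf_dvd_of_pow_eq_one (sd_pow φ hexp h _ (pow_orderOf_eq_one h.right))
      have hcop : Nat.Coprime (p * q) 2 :=
        Nat.Coprime.mul_left ((Nat.coprime_primes hp Nat.prime_two).mpr hp2)
          ((Nat.coprime_primes hq Nat.prime_two).mpr hq2)
      exact Nat.dvd_antisymm hk1 (hcop.dvd_of_dvd_mul_right h2)
  · rintro ⟨g, hg⟩
    exact ⟨inr g, by rw [orderOf_injective (inr : G →* N ⋊[φ] G) inr_injective]; exact hg⟩

theorem sd_card_dvd [Finite N] (hexp : ∀ w : N, w * w = 1)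
    (h2 : 2 ∣ Nat.card G) (p : ℕ) (hp : p.Prime) :
    p ∣ Nat.card (N ⋊[φ] G) ↔ p ∣ Nat.card G := by
  rw [SemidirectProduct.card]
  constructor
  · intro h
    rcases hp.dvd_mul.mp h with h' | h'
    · have hN : IsPGroup 2 N := fun w => ⟨1, by rw [pow_one, pow_two]; exact hexp w⟩
      have : Fact (Nat.Prime 2) := ⟨Nat.prime_two⟩
      obtain ⟨j, hj⟩ := IsPGroup.iff_card.mp hN
      rw [hj] at h'
      have h3 := (Nat.prime_dvd_prime_iff_eq hp Nat.prime_two).mp (hp.dvd_of_dvd_pow h')
      rw [h3]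
      exact h2
    · exact h'
  · intro h
    exact h.mul_left _

end semidirect

section sl2

theorem sl_eq_of_coe {R : Type*} [CommRing R] {A B : Matrix.SpecialLinearGroup (Fin 2) R}
    (h : (A : Matrix (Fin 2) (Fin 2) R) = B) : A = B := Subtype.ext h

variable {F : Type*} [Field F] [CharP F 2]

theorem sl2_sq_of_fix (g : Matrix.SpecialLinearGroup (Fin 2) F) (u : Fin 2 → F) (hu : u ≠ 0)
    (hgu : g.1 *ᵥ u = u) : g ^ 2 = 1 := by
  have hdet : (g.1 - 1).det = 0 := by
    apply Matrix.exists_mulVec_eq_zero_iff.mp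
    exact ⟨u, hu, by rw [Matrix.sub_mulVec, hgu, Matrix.one_mulVec, sub_self]⟩
  have hd : g.1.det = 1 := g.2
  rw [Matrix.det_fin_two] at hdet hd
  have hdet' : (g.1 0 0 - 1) * (g.1 1 1 - 1) - g.1 0 1 * g.1 1 0 = 0 := by
    simpa using hdet
  have h2 : (2 : F) = 0 := CharTwo.two_eq_zero
  have htr : g.1 0 0 + g.1 1 1 = 0 := by linear_combination hd - hdet' + h2
  have e00 : (g.1 * g.1) 0 0 = (1 : Matrix (Fin 2) (Fin 2) F) 0 0 := by
    rw [Matrix.mul_apply, Fin.sum_univ_two, Matrix.one_apply_eq]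
    linear_combination (g.1 0 0) * htr - hd - h2
  have e01 : (g.1 * g.1) 0 1 = (1 : Matrix (Fin 2) (Fin 2) F) 0 1 := by
    rw [Matrix.mul_apply, Fin.sum_univ_two, Matrix.one_apply_ne (by decide)]
    linear_combination (g.1 0 1) * htr
  have e10 : (g.1 * g.1) 1 0 = (1 : Matrix (Fin 2) (Fin 2) F) 1 0 := by
    rw [Matrix.mul_apply, Fin.sum_univ_two, Matrix.one_apply_ne (by decide)]
    linear_combination (g.1 1 0) * htr
  have e11 : (g.1 * g.1) 1 1 = (1 : Matrix (Fin 2) (Fin 2) F) 1 1 := by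
    rw [Matrix.mul_apply, Fin.sum_univ_two, Matrix.one_apply_eq]
    linear_combination (g.1 1 1) * htr - hd - h2
  apply sl_eq_of_coe
  rw [Matrix.SpecialLinearGroup.coe_pow, pow_two, Matrix.SpecialLinearGroup.coe_one,
    ← Matrix.ext_iff]
  intro i j
  fin_cases i <;> fin_cases j
  · exact e00
  · exact e01
  · exact e10
  · exact e11

theorem sl2_card_even [Finite F] : 2 ∣ Nat.card (Matrix.SpecialLinearGroup (Fin 2) F) := by
  have h2 : (2 : F) = 0 := CharTwo.two_eq_zero
  let u : Matrix.SpecialLinearGroup (Fin 2) F := ⟨!![1, 1; 0, 1], by simp [Matrix.det_fin_two]⟩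
  have hu2 : u ^ 2 = 1 := by
    apply sl_eq_of_coe
    rw [Matrix.SpecialLinearGroup.coe_pow, pow_two, Matrix.SpecialLinearGroup.coe_one]
    show !![(1 : F), 1; 0, 1] * !![(1 : F), 1; 0, 1] = 1
    rw [Matrix.mul_fin_two, Matrix.one_fin_two]
    congr 1
    simp only [mul_one, mul_zero, add_zero, zero_add]
    rw [one_add_one_eq_two, h2]
  have hu1 : u ≠ 1 := by
    intro h
    have h3 := congrArg (fun x : Matrix.SpecialLinearGroup (Fin 2) F => x.1 0 1) h
    simp [u] at h3
  have ho : orderOf u = 2 := orderOf_eq_prime hu2 hu1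
  have h4 := orderOf_dvd_natCard u
  rw [ho] at h4
  exact h4

end sl2

section construction

open SemidirectProduct

variable (E : Type*) [Field E]

/-- The action of `SL(2,E)` on `m` copies of the natural module, written multiplicatively. -/
noncomputable def slPhi (m : ℕ) :
    Matrix.SpecialLinearGroup (Fin 2) E →* MulAut (Multiplicative (Fin m → Fin 2 → E)) :=
  (MulAutMultiplicative (Fin m → Fin 2 → E)).symm.toMonoidHom.comp
    (DistribMulAction.toAddAut (Matrix.SpecialLinearGroup (Fin 2) E) (Fin m → Fin 2 → E))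

theorem slPhi_apply (m : ℕ) (g : Matrix.SpecialLinearGroup (Fin 2) E)
    (w : Multiplicative (Fin m → Fin 2 → E)) :
    slPhi E m g w = Multiplicative.ofAdd (g • Multiplicative.toAdd w) := rfl

theorem sl2_semidirect_graph [Finite E] [CharP E 2] (m : ℕ) :
    m < Nat.card (Multiplicative (Fin m → Fin 2 → E) ⋊[slPhi E m] Matrix.SpecialLinearGroup (Fin 2) E) ∧
    (∀ p : ℕ, p.Prime →
      (p ∣ Nat.card (Multiplicative (Fin m → Fin 2 → E) ⋊[slPhi E m] Matrix.SpecialLinearGroup (Fin 2) E)
        ↔ p ∣ Nat.card (Matrix.SpecialLinearGroup (Fin 2) E))) ∧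
    (∀ p q : ℕ, p.Prime → q.Prime → p ≠ q →
      ((∃ h : Multiplicative (Fin m → Fin 2 → E) ⋊[slPhi E m] Matrix.SpecialLinearGroup (Fin 2) E,
          orderOf h = p * q) ↔ ∃ g : Matrix.SpecialLinearGroup (Fin 2) E, orderOf g = p * q)) := by
  have hfinS : Finite (Matrix.SpecialLinearGroup (Fin 2) E) :=
    Finite.of_injective (fun g : Matrix.SpecialLinearGroup (Fin 2) E => g.1) Subtype.val_injective
  have hexp : ∀ w : Multiplicative (Fin m → Fin 2 → E), w * w = 1 := by
    intro w
    apply Multiplicative.toAdd.injective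
    show Multiplicative.toAdd w + Multiplicative.toAdd w = 0
    funext i j
    exact CharTwo.add_self_eq_zero _
  have hfix : ∀ (g : Matrix.SpecialLinearGroup (Fin 2) E) (w : Multiplicative (Fin m → Fin 2 → E)),
      w ≠ 1 → slPhi E m g w = w → g ^ 2 = 1 := by
    intro g w hw1 hgw
    have hw0 : Multiplicative.toAdd w ≠ 0 := fun h => hw1 (Multiplicative.toAdd.injective h)
    obtain ⟨i, hi⟩ : ∃ i, Multiplicative.toAdd w i ≠ 0 := by
      by_contra hcon
      push Not at hcon
      exact hw0 (funext hcon)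
    have hgw' : g • Multiplicative.toAdd w = Multiplicative.toAdd w := by
      have h1 := congrArg Multiplicative.toAdd hgw
      rw [slPhi_apply] at h1
      exact h1
    have hgi : g.1 *ᵥ (Multiplicative.toAdd w i) = Multiplicative.toAdd w i := by
      have h2 := congrFun hgw' i
      exact h2
    exact sl2_sq_of_fix g _ hi hgi
  refine ⟨?_, ?_, ?_⟩
  · rw [SemidirectProduct.card]
    have h1 : Nat.card (Multiplicative (Fin m → Fin 2 → E)) = Nat.card (Fin 2 → E) ^ m := by
      rw [Nat.card_congr Multiplicative.toAdd, Nat.card_fun, Nat.card_fin]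
    have h2 : 1 < Nat.card (Fin 2 → E) := Finite.one_lt_card
    have h3 : 0 < Nat.card (Matrix.SpecialLinearGroup (Fin 2) E) := Nat.card_pos
    have h4 : 2 ^ m ≤ Nat.card (Fin 2 → E) ^ m := Nat.pow_le_pow_left h2 m
    have h5 : m < 2 ^ m := Nat.lt_two_pow_self
    rw [h1]
    calc m < 2 ^ m := h5
      _ ≤ Nat.card (Fin 2 → E) ^ m := h4
      _ ≤ Nat.card (Fin 2 → E) ^ m * Nat.card (Matrix.SpecialLinearGroup (Fin 2) E) :=
        Nat.le_mul_of_pos_right _ h3
  · intro p hp
    exact sd_card_dvd (slPhi E m) hexp sl2_card_even p hp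
  · intro p q hp hq hpq
    exact sd_graph (slPhi E m) hexp hfix p q hp hq hpq

/-- In characteristic 2 the group `PSL(2,E)` is isomorphic to `SL(2,E)`. -/
theorem psl2_equiv_sl2 [CharP E 2] :
    Nonempty (Matrix.ProjectiveSpecialLinearGroup (Fin 2) E ≃* Matrix.SpecialLinearGroup (Fin 2) E) := by
  have hc : Subgroup.center (Matrix.SpecialLinearGroup (Fin 2) E) = ⊥ := by
    rw [Subgroup.eq_bot_iff_forall]
    intro A hA
    obtain ⟨r, hr, hA'⟩ := Matrix.SpecialLinearGroup.mem_center_iff.mp hA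
    have h2 : (2 : E) = 0 := CharTwo.two_eq_zero
    have hr1 : r = 1 := by
      have h3 : r ^ 2 = 1 := by simpa using hr
      have h4 : (r - 1) ^ 2 = 0 := by linear_combination h3 + (1 - r) * h2
      have h5 := pow_eq_zero_iff (two_ne_zero) |>.mp h4
      exact sub_eq_zero.mp h5
    apply sl_eq_of_coe
    rw [← hA', hr1]
    simp
  exact ⟨(QuotientGroup.quotientMulEquivOfEq hc).trans QuotientGroup.quotientBot⟩

end construction

section cheb

/-- The sequence with `g ^ (n+1) = U (n+1) • g - U n • 1` for `g` of determinant one and trace `t`. -/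
def chebU {R : Type*} [CommRing R] (t : R) : ℕ → R
  | 0 => 0
  | 1 => 1
  | (n + 2) => t * chebU t (n + 1) - chebU t n

theorem sl2_sq {R : Type*} [CommRing R] (g : Matrix (Fin 2) (Fin 2) R) (hdet : g.det = 1) :
    g * g = (g 0 0 + g 1 1) • g - 1 := by
  rw [Matrix.det_fin_two] at hdet
  rw [← Matrix.ext_iff]
  intro i j
  fin_cases i <;> fin_cases j
  · show (g * g) 0 0 = ((g 0 0 + g 1 1) • g - 1) 0 0
    rw [Matrix.mul_apply, Fin.sum_univ_two, Matrix.sub_apply, Matrix.smul_apply,
      Matrix.one_apply_eq, smul_eq_mul]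
    linear_combination (-1 : R) * hdet
  · show (g * g) 0 1 = ((g 0 0 + g 1 1) • g - 1) 0 1
    rw [Matrix.mul_apply, Fin.sum_univ_two, Matrix.sub_apply, Matrix.smul_apply,
      Matrix.one_apply_ne (by decide), smul_eq_mul]
    ring
  · show (g * g) 1 0 = ((g 0 0 + g 1 1) • g - 1) 1 0
    rw [Matrix.mul_apply, Fin.sum_univ_two, Matrix.sub_apply, Matrix.smul_apply,
      Matrix.one_apply_ne (by decide), smul_eq_mul]
    ring
  · show (g * g) 1 1 = ((g 0 0 + g 1 1) • g - 1) 1 1
    rw [Matrix.mul_apply, Fin.sum_univ_two, Matrix.sub_apply, Matrix.smul_apply,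
      Matrix.one_apply_eq, smul_eq_mul]
    linear_combination (-1 : R) * hdet

theorem sl2_pow {R : Type*} [CommRing R] (g : Matrix (Fin 2) (Fin 2) R) (hdet : g.det = 1)
    (n : ℕ) :
    g ^ (n + 1) = chebU (g 0 0 + g 1 1) (n + 1) • g
      - chebU (g 0 0 + g 1 1) n • (1 : Matrix (Fin 2) (Fin 2) R) := by
  induction n with
  | zero => simp [chebU]
  | succ n ih =>
    rw [pow_succ, ih, sub_mul, smul_mul_assoc, smul_mul_assoc, one_mul, sl2_sq g hdet]
    simp only [chebU]
    module

end cheb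

end Cfsg.Agent.Helper18
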