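import Mathlib

set_option autoImplicit false

namespace Cfsg.Agent.Helper18.SLTwoPow

open Matrix

/-- iterating `v ↦ Y *ᵥ v`. -/
theorem iterate_mulVec {F : Type*} [Field F] {n : ℕ} (Y : Matrix (Fin n) (Fin n) F) (j : ℕ)
    (v : Fin n → F) : (fun w : Fin n → F => Y *ᵥ w)^[j] v = (Y ^ j) *ᵥ v := by
  induction j with
  | zero => simp
  | succ j ih =>
    rw [Function.iterate_succ_apply', ih, Matrix.mulVec_mulVec, pow_succ']

/-- Counting lemma: a matrix of order `l^(e+1)` over a finite field with `q` elements, `l ∤ q`,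
forces `l^(e+1) ∣ q^d - 1` for some `1 ≤ d ≤ n`. -/
theorem prime_pow_dvd_of_matrix_order {F : Type*} [Field F] [Fintype F] {n : ℕ}
    (Y : Matrix (Fin n) (Fin n) F) (l e : ℕ) (hl : l.Prime)
    (hlq : Nat.Coprime l (Fintype.card F))
    (h1 : Y ^ (l ^ (e + 1)) = 1) (h2 : Y ^ (l ^ e) ≠ 1) :
    ∃ d, 1 ≤ d ∧ d ≤ n ∧ l ^ (e + 1) ∣ Fintype.card F ^ d - 1 := by
  classical
  have : Fact l.Prime := ⟨hl⟩
  set N := l ^ (e + 1) with hN
  have hNpos : 0 < N := pow_pos hl.pos _
  set u := Y ^ (l ^ e) with hu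
  have hYinv : Y ^ (N - 1) * Y = 1 := by
    rw [← pow_succ, Nat.sub_add_cancel hNpos, h1]
  have hYinv' : Y * Y ^ (N - 1) = 1 := by
    rw [← pow_succ', Nat.sub_add_cancel hNpos, h1]
  let π : Equiv.Perm (Fin n → F) :=
    { toFun := fun v => Y *ᵥ v
      invFun := fun v => (Y ^ (N - 1)) *ᵥ v
      left_inv := fun v => by simp [Matrix.mulVec_mulVec, hYinv]
      right_inv := fun v => by simp [Matrix.mulVec_mulVec, hYinv'] }
  have hπ : ∀ v, π v = Y *ᵥ v := fun v => rfl
  have hcomm : u * Y = Y * u := by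
    rw [hu, ← pow_succ, ← pow_succ']
  let K : Submodule F (Fin n → F) := LinearMap.ker (Matrix.toLin' u - LinearMap.id)
  have hK : ∀ v, v ∈ K ↔ u *ᵥ v = v := by
    intro v
    simp only [K, LinearMap.mem_ker, LinearMap.sub_apply, Matrix.toLin'_apply, LinearMap.id_apply,
      sub_eq_zero]
  have hKinv : ∀ v, (π v ∉ K) ↔ (v ∉ K) := by
    intro v
    rw [hK, hK, hπ, Matrix.mulVec_mulVec, hcomm, ← Matrix.mulVec_mulVec]
    constructor
    · intro h h'; exact h (by rw [h'])
    · intro h h'; exact h (π.injective (by simpa [hπ] using h'))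
  let σ : Equiv.Perm {v : Fin n → F // v ∉ K} := π.subtypePerm hKinv
  have hσ : ∀ (j : ℕ) (x : {v : Fin n → F // v ∉ K}), ((σ ^ j) x).1 = (Y ^ j) *ᵥ x.1 := by
    intro j
    induction j with
    | zero => intro x; simp
    | succ j ih =>
      intro x
      rw [pow_succ', Equiv.Perm.mul_apply]
      show π ((σ ^ j) x).1 = _
      rw [hπ, ih, Matrix.mulVec_mulVec, ← pow_succ']
  have hKne : K ≠ ⊤ := by
    intro hK'
    apply h2
    have : Matrix.toLin' u = Matrix.toLin' (1 : Matrix (Fin n) (Fin n) F) := by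
      apply LinearMap.ext
      intro v
      have hv : v ∈ K := by rw [hK']; trivial
      rw [Matrix.toLin'_apply, (hK v).1 hv, Matrix.toLin'_one]; rfl
    exact Matrix.toLin'.injective this
  obtain ⟨v0, hv0⟩ : ∃ v, v ∉ K := by
    by_contra hcon
    exact hKne (eq_top_iff.2 fun v _ => by
      by_contra hv
      exact hcon ⟨v, hv⟩)
  have hσN : σ ^ N = 1 := by
    apply Equiv.ext
    intro x
    apply Subtype.ext
    rw [hσ, h1, Matrix.one_mulVec]; rfl
  have hσe : σ ^ (l ^ e) ≠ 1 := by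
    intro h
    have := hσ (l ^ e) ⟨v0, hv0⟩
    rw [h] at this
    exact hv0 ((hK v0).2 this.symm)
  have hoσ : orderOf σ = N := orderOf_eq_prime_pow hσe hσN
  have hstab : ∀ x : {v : Fin n → F // v ∉ K},
      MulAction.stabilizer (Subgroup.zpowers σ) x = ⊥ := by
    intro x
    rw [eq_bot_iff]
    intro g hg
    rw [Subgroup.mem_bot]
    have hg' : (g : Equiv.Perm {v : Fin n → F // v ∉ K}) x = x := hg
    obtain ⟨k, hk⟩ : ∃ k : ℕ, σ ^ k = (g : Equiv.Perm {v : Fin n → F // v ∉ K}) := by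
      have := (mem_powers_iff_mem_zpowers (x := σ)
        (y := (g : Equiv.Perm {v : Fin n → F // v ∉ K}))).2 g.2
      exact (Submonoid.mem_powers_iff _ _).1 this
    have hper1 : Function.IsPeriodicPt (fun w : Fin n → F => Y *ᵥ w) k x.1 := by
      show (fun w : Fin n → F => Y *ᵥ w)^[k] x.1 = x.1
      rw [iterate_mulVec, ← hσ, hk, hg']
    have hper2 : Function.IsPeriodicPt (fun w : Fin n → F => Y *ᵥ w) N x.1 := by
      show (fun w : Fin n → F => Y *ᵥ w)^[N] x.1 = x.1
      rw [iterate_mulVec, h1, Matrix.one_mulVec]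
    have hdvd : N ∣ k := by
      by_contra hnd
      have hg := hper1.gcd hper2
      obtain ⟨i, hi, hgi⟩ := (Nat.dvd_prime_pow hl).1 (Nat.gcd_dvd_right k N)
      have hi' : i ≤ e := by
        by_contra hlt
        have : i = e + 1 := by omega
        apply hnd
        rw [hN, ← this, ← hgi]
        exact Nat.gcd_dvd_left k N
      rw [hgi] at hg
      have hper3 := hg.trans_dvd (pow_dvd_pow l hi')
      have : (fun w : Fin n → F => Y *ᵥ w)^[l ^ e] x.1 = x.1 := hper3
      rw [iterate_mulVec] at this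
      exact x.2 ((hK x.1).2 this)
    apply Subtype.ext
    rw [← hk]
    obtain ⟨c, rfl⟩ := hdvd
    rw [pow_mul, hσN, one_pow]; rfl
  have hcard : Nat.card {v : Fin n → F // v ∉ K} =
      Nat.card (Quotient (MulAction.orbitRel (Subgroup.zpowers σ) {v : Fin n → F // v ∉ K}))
        * N := by
    rw [Nat.card_congr (MulAction.selfEquivOrbitsQuotientProd hstab), Nat.card_prod,
      Nat.card_zpowers, hoσ]
  have hdvdX : N ∣ Nat.card {v : Fin n → F // v ∉ K} := by
    rw [hcard]; exact Dvd.intro_left _ rfl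
  have hcV : Fintype.card (Fin n → F) = Fintype.card F ^ n := by simp
  have hcK : Fintype.card K = Fintype.card F ^ Module.finrank F K := Module.card_eq_pow_finrank
  have hfr : Module.finrank F K < n := by
    have := Submodule.finrank_lt hKne
    simpa using this
  have hcX : Nat.card {v : Fin n → F // v ∉ K}
      = Fintype.card F ^ n - Fintype.card F ^ Module.finrank F K := by
    rw [Nat.card_eq_fintype_card, Fintype.card_subtype_compl, hcV, ← hcK]
  refine ⟨n - Module.finrank F K, by omega, by omega, ?_⟩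
  have hfac : Fintype.card F ^ n - Fintype.card F ^ Module.finrank F K
      = Fintype.card F ^ Module.finrank F K
        * (Fintype.card F ^ (n - Module.finrank F K) - 1) := by
    rw [Nat.mul_sub, mul_one, ← pow_add, Nat.add_sub_cancel' hfr.le]
  rw [hcX, hfac] at hdvdX
  exact (Nat.Coprime.pow_left _ (Nat.Coprime.pow_right _ hlq)).dvd_of_dvd_mul_left hdvdX

theorem eq_one_of_ne_zero {F : Type*} [Field F] [Fintype F] (hF : Fintype.card F = 2) (x : F)
    (hx : x ≠ 0) : x = 1 := by
  classical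
  by_contra h1
  have h3 : ({0, 1, x} : Finset F).card = 3 := by
    rw [Finset.card_insert_of_notMem, Finset.card_insert_of_notMem, Finset.card_singleton]
    · simpa using Ne.symm h1
    · simp only [Finset.mem_insert, Finset.mem_singleton, not_or]
      exact ⟨zero_ne_one, Ne.symm hx⟩
  have : 3 ≤ Fintype.card F := by
    calc 3 = ({0, 1, x} : Finset F).card := h3.symm
      _ ≤ Fintype.card F := Finset.card_le_univ _
  omega

theorem orderOf_sl_coe {F : Type*} [Field F] {n : ℕ} (x : Matrix.SpecialLinearGroup (Fin n) F) :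
    orderOf x = orderOf (x : Matrix (Fin n) (Fin n) F) := by
  rw [orderOf_eq_orderOf_iff]
  intro j
  constructor
  · intro h
    rw [← Matrix.SpecialLinearGroup.coe_pow, h]
    rfl
  · intro h
    apply Subtype.ext
    rw [Matrix.SpecialLinearGroup.coe_pow]
    exact h

/-- Singer-type elements: every divisor of `2^d - 1` (`1 ≤ d ≤ n`) is an element order of
`SL(n, F)` when `|F| = 2`. -/
theorem exists_sl_orderOf {F : Type*} [Field F] [Fintype F] (hF : Fintype.card F = 2)
    (n d m : ℕ) (hd1 : 1 ≤ d) (hdn : d ≤ n) (hm : m ∣ 2 ^ d - 1) :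
    ∃ x : Matrix.SpecialLinearGroup (Fin n) F, orderOf x = m := by
  classical
  have : Fact (Nat.Prime 2) := ⟨Nat.prime_two⟩
  let e2 : ZMod 2 ≃+* F := ZMod.ringEquivOfPrime F Nat.prime_two hF
  let : Algebra F (GaloisField 2 d) :=
    ((algebraMap (ZMod 2) (GaloisField 2 d)).comp (e2.symm : F →+* ZMod 2)).toAlgebra
  have : Fintype (GaloisField 2 d) := Fintype.ofFinite _
  let A := GaloisField 2 d × (Fin (n - d) → F)
  have hcardK : Fintype.card (GaloisField 2 d) = 2 ^ d := by
    rw [← Nat.card_eq_fintype_card]; exact GaloisField.card 2 d (by omega)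
  have hcardA : Fintype.card A = 2 ^ n := by
    show Fintype.card (GaloisField 2 d × (Fin (n - d) → F)) = 2 ^ n
    rw [Fintype.card_prod, hcardK, Fintype.card_fun, hF, Fintype.card_fin, ← pow_add]
    congr 1; omega
  have hfin : Module.finrank F A = n := by
    have h := Module.card_eq_pow_finrank (K := F) (V := A)
    rw [hcardA, hF] at h
    exact (Nat.pow_right_injective (le_refl 2) h).symm
  let b : Module.Basis (Fin n) F A := Module.finBasisOfFinrankEq F A hfin
  obtain ⟨ζ, hζ⟩ := IsCyclic.exists_generator (α := (GaloisField 2 d)ˣ)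
  have hoζ : orderOf ζ = 2 ^ d - 1 := by
    rw [orderOf_eq_card_of_forall_mem_zpowers hζ, Nat.card_units, GaloisField.card 2 d (by omega)]
  have hmpos : 0 < 2 ^ d - 1 := by
    have : 2 ^ 1 ≤ 2 ^ d := Nat.pow_le_pow_right (by norm_num) hd1
    omega
  obtain ⟨c, hc⟩ := hm
  have hcpos : c ≠ 0 := by rintro rfl; omega
  set z := ζ ^ c with hz
  have hoz : orderOf z = m := by
    rw [hz, orderOf_pow_of_dvd hcpos (by rw [hoζ, hc]; exact Dvd.intro_left _ rfl), hoζ, hc]
    exact Nat.mul_div_cancel _ (Nat.pos_of_ne_zero hcpos)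
  let a : A := ((z : GaloisField 2 d), 1)
  let a' : A := (((z⁻¹ : (GaloisField 2 d)ˣ) : GaloisField 2 d), 1)
  have haa' : a * a' = 1 := by
    apply Prod.ext
    · show (z : GaloisField 2 d) * ((z⁻¹ : (GaloisField 2 d)ˣ) : GaloisField 2 d) = 1
      exact Units.mul_inv z
    · show (1 : Fin (n - d) → F) * 1 = 1
      exact mul_one 1
  have hoa : orderOf a = m := by
    rw [Prod.orderOf]
    show Nat.lcm (orderOf (z : GaloisField 2 d)) (orderOf (1 : Fin (n - d) → F)) = m
    rw [orderOf_one, Nat.lcm_one_right, orderOf_units, hoz]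
  have hΦ : Function.Injective (Algebra.leftMulMatrix b) := Algebra.leftMulMatrix_injective b
  have hoM : orderOf (Algebra.leftMulMatrix b a) = m := by
    rw [← hoa]
    exact orderOf_injective ((Algebra.leftMulMatrix b : A →ₐ[F] Matrix (Fin n) (Fin n) F) :
      A →* Matrix (Fin n) (Fin n) F) hΦ a
  have hdet : (Algebra.leftMulMatrix b a).det = 1 := by
    apply eq_one_of_ne_zero hF
    intro h0
    have : (Algebra.leftMulMatrix b a).det * (Algebra.leftMulMatrix b a').det = 1 := by
      rw [← Matrix.det_mul, ← map_mul, haa', map_one, Matrix.det_one]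
    rw [h0, zero_mul] at this
    exact zero_ne_one this
  obtain ⟨x, hx⟩ : ∃ x : Matrix.SpecialLinearGroup (Fin n) F,
      (x : Matrix (Fin n) (Fin n) F) = Algebra.leftMulMatrix b a := ⟨⟨_, hdet⟩, rfl⟩
  exact ⟨x, by rw [orderOf_sl_coe, hx]; exact hoM⟩

theorem center_eq_bot {F : Type*} [Field F] [Fintype F] (hF : Fintype.card F = 2) (n : ℕ)
    (hn : 1 ≤ n) : Subgroup.center (Matrix.SpecialLinearGroup (Fin n) F) = ⊥ := by
  classical
  rw [eq_bot_iff]
  intro A hA
  rw [Matrix.SpecialLinearGroup.mem_center_iff] at hA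
  obtain ⟨r, hr, hrA⟩ := hA
  have hr0 : r ≠ 0 := by
    rintro rfl
    rw [Fintype.card_fin, zero_pow (by omega)] at hr
    exact zero_ne_one hr
  have hr1 : r = 1 := eq_one_of_ne_zero hF r hr0
  rw [Subgroup.mem_bot]
  apply Subtype.ext
  rw [← hrA, hr1, map_one]; rfl

theorem orderOf_mk {F : Type*} [Field F] [Fintype F] (hF : Fintype.card F = 2) (n : ℕ)
    (hn : 1 ≤ n) (x : Matrix.SpecialLinearGroup (Fin n) F) :
    orderOf (QuotientGroup.mk' (Subgroup.center (Matrix.SpecialLinearGroup (Fin n) F)) x)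
      = orderOf x := by
  apply orderOf_injective
  rw [← MonoidHom.ker_eq_bot_iff, QuotientGroup.ker_mk', center_eq_bot hF n hn]

/-- every `1 ≤ d ≤ n` has a multiple in `(n/2, n]`. -/
theorem exists_multiple (n d : ℕ) (hd1 : 1 ≤ d) (hdn : d ≤ n) :
    ∃ d', n / 2 < d' ∧ d' ≤ n ∧ 2 ^ d - 1 ∣ 2 ^ d' - 1 := by
  refine ⟨d * (n / d), ?_, Nat.mul_div_le n d, ?_⟩
  · have h1 : d * (n / d) ≤ n := Nat.mul_div_le n d
    have h2 : n < d * (n / d + 1) := Nat.lt_mul_div_succ n hd1
    have h3 : d * 1 ≤ d * (n / d) := Nat.mul_le_mul_left d (Nat.div_pos hdn hd1)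
    rw [mul_add, mul_one] at h2
    rw [mul_one] at h3
    omega
  · have := Nat.sub_dvd_pow_sub_pow (2 ^ d) 1 (n / d)
    simpa only [one_pow, ← pow_mul] using this

/-- abstract stabilisation statement. -/
theorem spec_stab_aux {L : Type*} [Group L] [Finite L] (n k : ℕ) (hn : 2 ≤ n)
    (hk : (n + 3) / 2 ≤ k)
    (hA : ∀ (y : L) (p c : ℕ), p.Prime → p ≠ 2 → orderOf y = p ^ (c + 1) →
        ∃ d, n / 2 < d ∧ d ≤ n ∧ p ^ (c + 1) ∣ 2 ^ d - 1)
    (hB : ∀ d m : ℕ, 1 ≤ d → d ≤ n → m ∣ 2 ^ d - 1 → ∃ x : L, orderOf x = m) :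
    Set.range (orderOf : (Fin k → L) → ℕ) = Set.range (orderOf : (Fin ((n + 3) / 2) → L) → ℕ) := by
  classical
  apply Set.eq_of_subset_of_subset
  · rintro N ⟨f, rfl⟩
    have hN0 : orderOf f ≠ 0 := (orderOf_pos f).ne'
    have key : ∀ (p c : ℕ), p.Prime → p ^ (c + 1) ∣ orderOf f →
        ∃ y : L, orderOf y = p ^ (c + 1) := by
      intro p c hp hdvd
      have : Fact p.Prime := ⟨hp⟩
      obtain ⟨t, ht⟩ := hdvd
      have ht0 : t ≠ 0 := by rintro rfl; rw [mul_zero] at ht; exact hN0 ht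
      have hog : orderOf (f ^ t) = p ^ (c + 1) := by
        rw [orderOf_pow_of_dvd ht0 (by rw [ht]; exact Dvd.intro_left _ rfl), ht]
        exact Nat.mul_div_cancel _ (Nat.pos_of_ne_zero ht0)
      have h1 : (f ^ t) ^ (p ^ (c + 1)) = 1 := by rw [← hog]; exact pow_orderOf_eq_one _
      have h2 : (f ^ t) ^ (p ^ c) ≠ 1 := by
        intro h
        have h3 := orderOf_dvd_of_pow_eq_one h
        rw [hog] at h3
        have h4 := Nat.le_of_dvd (pow_pos hp.pos _) h3
        have h5 : p ^ c < p ^ (c + 1) := Nat.pow_lt_pow_right hp.one_lt (Nat.lt_succ_self c)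
        omega
      obtain ⟨i, hi⟩ : ∃ i, ((f ^ t) ^ (p ^ c)) i ≠ 1 := by
        by_contra hcon
        exact h2 (funext fun i => by
          by_contra hi
          exact hcon ⟨i, hi⟩)
      refine ⟨(f ^ t) i, orderOf_eq_prime_pow ?_ ?_⟩
      · simpa using hi
      · have := congrFun h1 i
        simpa using this
    obtain ⟨a, N', hodd, hNeq⟩ := Nat.exists_eq_two_pow_mul_odd hN0
    have hx0 : ∃ x₀ : L, orderOf x₀ = 2 ^ a := by
      rcases Nat.eq_zero_or_pos a with rfl | ha
      · exact ⟨1, by simp⟩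
      · obtain ⟨a', rfl⟩ : ∃ a', a = a' + 1 := ⟨a - 1, by omega⟩
        exact key 2 a' Nat.prime_two (by rw [hNeq]; exact Dvd.intro _ rfl)
    let w : Fin ((n + 3) / 2) → ℕ :=
      fun j => if j.1 = 0 then 2 ^ a else Nat.gcd N' (2 ^ (n / 2 + j.1) - 1)
    have hw : ∀ j : Fin ((n + 3) / 2), ∃ x : L, orderOf x = w j := by
      intro j
      by_cases hj : j.1 = 0
      · simp only [w, hj, if_true]; exact hx0
      · simp only [w, hj, if_false]
        have := j.2
        exact hB (n / 2 + j.1) _ (by omega) (by omega) (Nat.gcd_dvd_right _ _)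
    choose f' hf' using hw
    refine ⟨f', ?_⟩
    rw [Pi.orderOf]
    simp only [hf']
    apply Nat.dvd_antisymm
    · apply Finset.lcm_dvd
      intro j _
      by_cases hj : j.1 = 0
      · simp only [w, hj, if_true]; rw [hNeq]; exact Dvd.intro _ rfl
      · simp only [w, hj, if_false]; rw [hNeq]
        exact Nat.dvd_trans (Nat.gcd_dvd_left _ _) (Dvd.intro_left _ rfl)
    · rw [hNeq]
      apply Nat.Coprime.mul_dvd_of_dvd_of_dvd
      · exact Nat.Coprime.pow_left _ (Nat.coprime_two_left.2 hodd)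
      · have h0 : 0 < (n + 3) / 2 := by omega
        have := Finset.dvd_lcm (f := w) (Finset.mem_univ (⟨0, h0⟩ : Fin ((n + 3) / 2)))
        simpa [w] using this
      · rw [Nat.dvd_iff_prime_pow_dvd_dvd]
        intro p c hp hpc
        rcases Nat.eq_zero_or_pos c with rfl | hc
        · simp
        · obtain ⟨c', rfl⟩ : ∃ c', c = c' + 1 := ⟨c - 1, by omega⟩
          have hp2 : p ≠ 2 := by
            rintro rfl
            have : 2 ∣ N' := Nat.dvd_trans (dvd_pow_self 2 (by omega)) hpc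
            exact (Nat.not_even_iff_odd.2 hodd) (even_iff_two_dvd.2 this)
          obtain ⟨y, hy⟩ := key p c' hp
            (by rw [hNeq]; exact Nat.dvd_trans hpc (Dvd.intro_left _ rfl))
          obtain ⟨d, hd1, hd2, hd3⟩ := hA y p c' hp hp2 hy
          have hj : d - n / 2 < (n + 3) / 2 := by omega
          have h := Finset.dvd_lcm (f := w)
            (Finset.mem_univ (⟨d - n / 2, hj⟩ : Fin ((n + 3) / 2)))
          refine Nat.dvd_trans ?_ h
          have hne : d - n / 2 ≠ 0 := by omega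
          simp only [w, hne, if_false]
          have : n / 2 + (d - n / 2) = d := by omega
          rw [this]
          exact Nat.dvd_gcd hpc hd3
  · rintro N ⟨f', rfl⟩
    refine ⟨fun i => if h : i.1 < (n + 3) / 2 then f' ⟨i.1, h⟩ else 1, ?_⟩
    rw [orderOf_eq_orderOf_iff]
    intro m
    constructor
    · intro h
      funext j
      have := congrFun h ⟨j.1, lt_of_lt_of_le j.2 hk⟩
      simpa [j.2] using this
    · intro h
      funext i
      by_cases hi : i.1 < (n + 3) / 2
      · have := congrFun h ⟨i.1, hi⟩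
        simpa [hi] using this
      · simp [hi]

/-- The spectrum of `PSL(n, 2)^k` stabilises at `k₀ = (n+3)/2`. -/
theorem spec_stab {F : Type*} [Field F] [Fintype F] (hF : Fintype.card F = 2) (n k : ℕ)
    (hn : 2 ≤ n) (hk : (n + 3) / 2 ≤ k) :
    Set.range (orderOf : (Fin k → Matrix.ProjectiveSpecialLinearGroup (Fin n) F) → ℕ)
      = Set.range
        (orderOf : (Fin ((n + 3) / 2) → Matrix.ProjectiveSpecialLinearGroup (Fin n) F) → ℕ) := by
  classical
  apply spec_stab_aux n k hn hk
  · intro y p c hp hp2 hy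
    obtain ⟨x, rfl⟩ := QuotientGroup.mk_surjective y
    have hx : orderOf x = p ^ (c + 1) := by
      rw [← hy]; exact (orderOf_mk hF n (by omega) x).symm
    have h1 : (x : Matrix (Fin n) (Fin n) F) ^ (p ^ (c + 1)) = 1 := by
      have := pow_orderOf_eq_one x
      rw [hx] at this
      have h := congrArg (fun s : Matrix.SpecialLinearGroup (Fin n) F =>
        (s : Matrix (Fin n) (Fin n) F)) this
      simpa using h
    have h2 : (x : Matrix (Fin n) (Fin n) F) ^ (p ^ c) ≠ 1 := by
      intro h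
      have hx' : x ^ (p ^ c) = 1 := by
        apply Subtype.ext
        simpa using h
      have h3 := orderOf_dvd_of_pow_eq_one hx'
      rw [hx] at h3
      have h4 := Nat.le_of_dvd (pow_pos hp.pos _) h3
      have h5 : p ^ c < p ^ (c + 1) := Nat.pow_lt_pow_right hp.one_lt (Nat.lt_succ_self c)
      omega
    obtain ⟨d, hd1, hd2, hd3⟩ := prime_pow_dvd_of_matrix_order (x : Matrix (Fin n) (Fin n) F)
      p c hp (by rw [hF]; exact (Nat.coprime_primes hp Nat.prime_two).2 hp2) h1 h2
    rw [hF] at hd3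
    obtain ⟨d', h1', h2', h3'⟩ := exists_multiple n d hd1 hd2
    exact ⟨d', h1', h2', Nat.dvd_trans hd3 h3'⟩
  · intro d m hd1 hd2 hm
    obtain ⟨x, hx⟩ := exists_sl_orderOf hF n d m hd1 hd2 hm
    exact ⟨QuotientGroup.mk' _ x, by rw [orderOf_mk hF n (by omega) x, hx]⟩

end Cfsg.Agent.Helper18.SLTwoPow
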